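import Cfsg.Agent.Sz.Partition
import Cfsg.Agent.Sz.TwoGen
import Cfsg.Agent.AutPSL.Card
import Cfsg.Prelude.Def_KGroupFacts
set_option autoImplicit false

/-!
The automorphisms of the Suzuki group.
-/

namespace CfsgLib.Sz

open Matrix

variable {F : Type*} [Field F] [Fintype F] {m : ℕ}

theorem th_map (σ : RingAut F) (x : F) : th m (σ x) = σ (th m x) := (map_pow σ x _).symm

theorem fo_map (σ : RingAut F) (x y : F) : fo m (σ x) (σ y) = σ (fo m x y) := by
  simp [fo, th_map, map_add, map_mul, map_pow]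

/-- The field automorphism on matrices. -/
def fieldGL (σ : RingAut F) : GL (Fin 4) F →* GL (Fin 4) F := Units.map σ.toRingHom.mapMatrix.toMonoidHom

theorem fieldGL_val (σ : RingAut F) (g : GL (Fin 4) F) (i j : Fin 4) :
    ((fieldGL σ g : GL (Fin 4) F) : Matrix (Fin 4) (Fin 4) F) i j = σ ((g : Matrix (Fin 4) (Fin 4) F) i j) := rfl

variable (h : Hyp F m)
include h

theorem fieldGL_U (σ : RingAut F) (a b : F) : fieldGL σ (gU h a b).1 = (gU h (σ a) (σ b)).1 := by
  refine Units.ext (Matrix.ext fun i j => ?_)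
  rw [fieldGL_val]
  show σ (Um m a b i j) = Um m (σ a) (σ b) i j
  fin_cases i <;> fin_cases j <;> simp [Um, th_map, fo_map, map_add, map_mul]

theorem fieldGL_D (σ : RingAut F) (s : Fˣ) :
    fieldGL σ (gD h s).1 = (gD h (Units.map σ.toMonoidHom s)).1 := by
  refine Units.ext (Matrix.ext fun i j => ?_)
  rw [fieldGL_val]
  show σ (Hm m (s : F) i j) = Hm m (σ (s : F)) i j
  fin_cases i <;> fin_cases j <;> simp [Hm, th_map, map_mul, map_inv₀]

theorem fieldGL_W (σ : RingAut F) : fieldGL σ (gW h).1 = (gW h).1 := by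
  refine Units.ext (Matrix.ext fun i j => ?_)
  rw [fieldGL_val]
  show σ (Wm F i j) = Wm F i j
  fin_cases i <;> fin_cases j <;> simp [Wm]

theorem fieldGL_mem (σ : RingAut F) (g : G F m) : fieldGL σ g.1 ∈ G F m := by
  suffices H : (⊤ : Subgroup (G F m)) ≤ (G F m).comap ((fieldGL σ).comp (G F m).subtype) from H (Subgroup.mem_top g)
  rw [← generated h, Subgroup.closure_le]
  rintro x ((⟨p, rfl⟩ | ⟨s, rfl⟩) | rfl)
  · show fieldGL σ (gU h p.1 p.2).1 ∈ G F m
    rw [fieldGL_U]; exact SetLike.coe_mem _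
  · show fieldGL σ (gD h s).1 ∈ G F m
    rw [fieldGL_D]; exact SetLike.coe_mem _
  · show fieldGL σ (gW h).1 ∈ G F m
    rw [fieldGL_W]; exact SetLike.coe_mem _

/-- A field automorphism of the group. -/
def fieldFun (σ : RingAut F) (g : G F m) : G F m := ⟨fieldGL σ g.1, fieldGL_mem h σ g⟩

/-- The field automorphisms. -/
def fieldHom : RingAut F →* MulAut (G F m) where
  toFun σ :=
    { toFun := fieldFun h σ
      invFun := fieldFun h σ⁻¹
      left_inv := fun g => Subtype.ext (Units.ext (Matrix.ext fun i j => σ.symm_apply_apply _))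
      right_inv := fun g => Subtype.ext (Units.ext (Matrix.ext fun i j => σ.apply_symm_apply _))
      map_mul' := fun a b => Subtype.ext (map_mul (fieldGL σ) a.1 b.1) }
  map_one' := MulEquiv.ext fun g => Subtype.ext (Units.ext (Matrix.ext fun i j => rfl))
  map_mul' σ τ := MulEquiv.ext fun g => Subtype.ext (Units.ext (Matrix.ext fun i j => rfl))

theorem fieldHom_U (σ : RingAut F) (a b : F) : fieldHom h σ (gU h a b) = gU h (σ a) (σ b) :=
  Subtype.ext (fieldGL_U h σ a b)

theorem fieldHom_D (σ : RingAut F) (s : Fˣ) : fieldHom h σ (gD h s) = gD h (Units.map σ.toMonoidHom s) :=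
  Subtype.ext (fieldGL_D h σ s)

theorem exists_unit_ne_one : ∃ s : Fˣ, s ≠ 1 := by
  obtain ⟨c, hc0, hc1⟩ := exists_ne_01 h
  exact ⟨Units.mk0 c hc0, fun e => hc1 (by simpa using congrArg Units.val e)⟩

theorem gD_notMem_Usub {s : Fˣ} (hs : s ≠ 1) : gD h s ∉ Usub h := by
  rintro ⟨a, b, e⟩
  have := gUD_injective h (a := 0) (b := 0) (a' := a) (b' := b) (s := s) (s' := 1)
    (by rw [gU_zero, one_mul, gD_one, mul_one, e])
  exact hs this.2.2

theorem conj_gD_gU (s : Fˣ) (a b : F) :
    MulAut.conj (gD h s) (gU h a b) = gU h (th m (s : F) * a) (th m (s : F) * (s : F) ^ 2 * b) := gD_gU h s a b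

/-- Automorphisms fixing the unipotent group and the diagonal group. -/
def Std (γ : MulAut (G F m)) : Prop :=
  (∀ a b, ∃ a' b', γ (gU h a b) = gU h a' b') ∧ ∀ s, ∃ t, γ (gD h s) = gD h t

theorem exists_std_aut (α : MulAut (G F m)) : ∃ k : G F m, Std h (MulAut.conj k * α) := by
  obtain ⟨c, hc⟩ := exists_conj_sylow h ((sylU h).mapSurjective (f := α.toMonoidHom) α.surjective)
  have hc' : (Usub h).map α.toMonoidHom = (Usub h).map (MulAut.conj c).toMonoidHom := hc
  set β := MulAut.conj c⁻¹ * α with hβ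
  have hU : (Usub h).map β.toMonoidHom = Usub h := by
    rw [show β.toMonoidHom = (MulAut.conj c⁻¹).toMonoidHom.comp α.toMonoidHom from rfl, ← Subgroup.map_map, hc',
      Subgroup.map_map, show (MulAut.conj c⁻¹).toMonoidHom.comp (MulAut.conj c).toMonoidHom = MonoidHom.id _ from
        MonoidHom.ext fun x => by simp [MulAut.conj_apply, mul_assoc], Subgroup.map_id]
  have hB : (borel h).map β.toMonoidHom = borel h := by
    conv_rhs => rw [← normalizer_Usub h, ← hU, ← Subgroup.map_equiv_normalizer_eq, normalizer_Usub h]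
  obtain ⟨s1, hs1⟩ := exists_unit_ne_one h
  obtain ⟨a, b, s', hd⟩ := (mem_borel_iff h).mp (hB ▸ ⟨gD h s1, gD_oinf h s1, rfl⟩ : β (gD h s1) ∈ borel h)
  have hs' : s' ≠ 1 := fun e => gD_notMem_Usub h hs1 (by
    have : β (gD h s1) ∈ (Usub h).map β.toMonoidHom := by rw [hU, hd, e, gD_one, mul_one]; exact ⟨a, b, rfl⟩
    obtain ⟨u, hu, hue⟩ := this
    rwa [β.injective hue] at hu)
  obtain ⟨x, y, hxy⟩ := gD_coords h (a := a) (b := b) hs'
  set u := gU h x y with hu
  refine ⟨u⁻¹ * c⁻¹, ?_, ?_⟩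
  · intro a b
    rw [map_mul, mul_assoc, ← hβ]
    have hw : β (gU h a b) ∈ Usub h := hU ▸ ⟨gU h a b, ⟨a, b, rfl⟩, rfl⟩
    obtain ⟨a', b', he⟩ := borel_normalizes h (g := u⁻¹) (inv_mem ((mem_borel_iff h).mpr ⟨x, y, 1, by rw [gD_one, mul_one]⟩)) hw
    refine ⟨a', b', ?_⟩
    rw [← he]
    rfl
  · have hu00 : act h u (opt m 0 0) = opt m x y := by rw [hu, gU_opt]; simp
    obtain ⟨t1, ht1⟩ := eq_gD_of_fix_two h (g := u⁻¹ * β (gD h s1) * u)
      (conj_fix h (gU_oinf h x y) (by rw [hd, act_mul, gD_oinf, gU_oinf]))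
      (conj_fix h hu00 (by rw [hd]; exact hxy))
    intro s
    rw [map_mul, mul_assoc, ← hβ]
    have hcm : u⁻¹ * β (gD h s) * u ∈ Subgroup.centralizer ({gD h t1} : Set (G F m)) := by
      rw [Subgroup.mem_centralizer_singleton_iff, ← ht1]
      have : β (gD h s) * β (gD h s1) = β (gD h s1) * β (gD h s) := by
        rw [← map_mul, ← map_mul, gD_mul, gD_mul, mul_comm]
      calc u⁻¹ * β (gD h s) * u * (u⁻¹ * β (gD h s1) * u) = u⁻¹ * (β (gD h s) * β (gD h s1)) * u := by group
        _ = _ := by rw [this]; group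
    have ht : t1 ≠ 1 := fun e => hs1 (by
      rw [e, gD_one] at ht1
      have : β (gD h s1) = 1 := by
        calc β (gD h s1) = u * (u⁻¹ * β (gD h s1) * u) * u⁻¹ := by group
          _ = 1 := by rw [ht1]; group
      refine gD_injective h ?_
      rw [gD_one]
      exact β.injective (this.trans (map_one β).symm))
    rw [cent_gD h ht] at hcm
    obtain ⟨t, ht'⟩ := hcm
    refine ⟨t, ?_⟩
    show u⁻¹ * β (gD h s) * u⁻¹⁻¹ = gD h t
    rw [inv_inv]
    exact ht'.symm

theorem rigid (δ : MulAut (G F m)) (hU : ∀ a, ∃ e, δ (gU h a 0) = gU h a e) (hD : ∀ s, δ (gD h s) = gD h s) :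
    δ = 1 := by
  choose e he using hU
  have hZ : ∀ z, δ (gU h 0 z) = gU h 0 z := by
    intro z
    obtain ⟨r, hr⟩ := norm_surj h z
    have : gU h 0 z = gU h r 0 * gU h r 0 := by rw [gU_sq, mul_comm, show r * th m r = z from hr]
    rw [this, map_mul, he, gU_sq, gU_sq]
  have he0 : e 0 = 0 := by
    have := he 0
    rw [gU_zero, map_one, ← gU_zero h] at this
    exact (gU_injective h this).2.symm
  have heq : ∀ (s : Fˣ) a, e (th m (s : F) * a) = th m (s : F) * (s : F) ^ 2 * e a := by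
    intro s a
    have h1 : gU h (th m (s : F) * a) 0 = gD h s * gU h a 0 * (gD h s)⁻¹ := by rw [gD_gU, mul_zero]
    have h2 := congrArg δ h1
    rw [map_mul, map_mul, map_inv, hD, he, he, gD_gU] at h2
    exact (gU_injective h h2).2
  have hform : ∀ x, e x = x * th m x * e 1 := by
    intro x
    by_cases hx : x = 0
    · rw [hx, he0]; ring
    obtain ⟨r, hr⟩ := th_surj h x
    have hr0 : r ≠ 0 := fun e' => hx (by rw [← hr, e', th_zero])
    have := heq (Units.mk0 r hr0) 1
    rw [Units.val_mk0, mul_one, hr] at this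
    rw [this, ← hr, h.th_th]
  have hadd : ∀ a b, e (a + b) = e a + e b := by
    intro a b
    have h1 : gU h a 0 * gU h b 0 = gU h (a + b) 0 * gU h 0 (th m a * b) := by
      simp [gU_mul]
    have h2 := congrArg δ h1
    rw [map_mul, map_mul, he, he, he, hZ, gU_mul, gU_mul] at h2
    simp only [mul_zero, add_zero] at h2
    linear_combination -(gU_injective h h2).2
  have he1 : e 1 = 0 := by
    obtain ⟨c, hc0, hc1⟩ := exists_ne_01 h
    have h1 := hadd c 1
    rw [hform (c + 1), hform c, h.th_add, th_one] at h1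
    have : (c + th m c) * e 1 = 0 := by linear_combination h1
    refine (mul_eq_zero.mp this).resolve_left fun e' => th_ne_self h hc0 hc1 ?_
    linear_combination e' - c * h.two
  have hUfix : ∀ a b, δ (gU h a b) = gU h a b := by
    intro a b
    have h1 : gU h a b = gU h a 0 * gU h 0 b := by rw [gU_mul, mul_zero, add_zero, add_zero, zero_add]
    rw [h1, map_mul, hZ, he, hform, he1, mul_zero]
  obtain ⟨s1, hs1⟩ := exists_unit_ne_one h
  have hWD : δ (gW h) * gD h s1 * δ (gW h) = gD h s1⁻¹ := by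
    conv_lhs => rw [← hD s1, ← map_mul, ← map_mul, gW_gD, hD]
  have hx : δ (gW h) * gW h ∈ Subgroup.centralizer ({gD h s1} : Set (G F m)) := by
    rw [Subgroup.mem_centralizer_singleton_iff]
    have h2 : δ (gW h) * δ (gW h) = 1 := by rw [← map_mul, gW_sq, map_one]
    calc δ (gW h) * gW h * gD h s1 = δ (gW h) * (gW h * gD h s1 * gW h) * gW h := by
          simp only [mul_assoc, gW_sq, mul_one]
      _ = δ (gW h) * (δ (gW h) * gD h s1 * δ (gW h)) * gW h := by rw [gW_gD, ← hWD]
      _ = gD h s1 * (δ (gW h) * gW h) := by simp only [← mul_assoc, h2, one_mul]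
  rw [cent_gD h hs1] at hx
  obtain ⟨t, ht⟩ := hx
  have hW : δ (gW h) = gD h t * gW h := by
    rw [show gD h t = δ (gW h) * gW h from ht, mul_assoc, gW_sq, mul_one]
  -- the torus part is trivial
  set P := act h (gW h) (opt m (0 : F) 1) with hP
  have hinj : ∀ p p', act h (gW h) p = act h (gW h) p' → p = p' := fun p p' e => by
    have := congrArg (act h (gW h)) e
    rwa [← act_mul, ← act_mul, gW_sq, act_one, act_one] at this
  rcases Ov.cases' m P with hPi | ⟨x, y, hPi⟩
  · exfalso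
    have h1 := (opt_injective m (hinj _ _ (hPi.trans (gW_opt_zero h).symm))).2
    exact one_ne_zero h1
  have hne : ¬(x = 0 ∧ y = 0) := fun e' => by
    rw [e'.1, e'.2] at hPi
    exact opt_ne_oinf m (0 : F) 1 (hinj _ _ (hPi.trans (gW_oinf h).symm))
  have hk : act h ((gU h x y * gW h)⁻¹ * (gW h * gU h 0 1 * gW h)) (oinf m) = oinf m := by
    rw [act_mul, act_mul, act_mul, gW_oinf, gU_opt]
    have hPe : act h (gW h) (opt m (0 + 0) (0 + th m (0 : F) * 0 + 1)) = act h (gU h x y * gW h) (oinf m) := by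
      rw [act_mul (g := gU h x y), gW_oinf, gU_opt]
      simp only [add_zero, zero_add, th_zero, zero_mul, mul_zero]
      exact hPi
    rw [hPe, ← act_mul, inv_mul_cancel, act_one]
  obtain ⟨a, b, s, hk'⟩ := exists_gUD_of_fix h hk
  rw [inv_mul_eq_iff_eq_mul] at hk'
  have h3 := congrArg (fun g => act h (δ g) (oinf m)) hk'
  simp only [map_mul, hW, hUfix, hD, act_mul, gU_oinf, gD_oinf, gW_oinf, gD_opt, gU_opt] at h3
  simp only [mul_zero, add_zero, zero_add, th_zero, zero_mul] at h3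
  have ht1 : t = 1 := by
    refine gD_fix_imp h hne ?_
    rw [← hPi]
    refine Eq.trans ?_ ((h3).trans hPi.symm)
    rfl
  apply MulEquiv.toMonoidHom_injective
  refine MonoidHom.eq_of_eqOn_top ?_
  rw [← generated h]
  refine MonoidHom.eqOn_closure ?_
  rintro g ((⟨p, rfl⟩ | ⟨r, rfl⟩) | rfl)
  · exact hUfix p.1 p.2
  · exact hD r
  · show δ (gW h) = gW h
    rw [hW, ht1, gD_one, one_mul]

theorem exists_decomposition (α : MulAut (G F m)) :
    ∃ (k : G F m) (σ : RingAut F), α = MulAut.conj k * fieldHom h σ := by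
  obtain ⟨k, hU, hD⟩ := exists_std_aut h α
  set γ := MulAut.conj k * α with hγ
  choose A B hAB using hU
  choose τ hτ using hD
  have hA : ∀ a b, A a b = A a 0 := by
    intro a b
    obtain ⟨r, hr⟩ := norm_surj h b
    have h1 : gU h 0 b = gU h r 0 * gU h r 0 := by rw [gU_sq, mul_comm, show r * th m r = b from hr]
    have h2 : gU h a b = gU h a 0 * gU h 0 b := by rw [gU_mul, mul_zero, add_zero, add_zero, zero_add]
    have h3 := congrArg γ h2
    rw [h1, map_mul, map_mul, hAB, hAB, hAB, gU_sq, gU_mul, add_zero] at h3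
    exact (gU_injective h h3).1
  have hAdd : ∀ a b, A (a + b) 0 = A a 0 + A b 0 := by
    intro a b
    have h3 := congrArg γ (gU_mul h a 0 b 0)
    rw [map_mul, hAB, hAB, hAB, gU_mul, hA (a + b)] at h3
    exact (gU_injective h h3).1.symm
  have hAs : ∀ (s : Fˣ) a, A (th m (s : F) * a) 0 = th m (τ s : F) * A a 0 := by
    intro s a
    have h3 := congrArg γ (gD_gU h s a 0)
    rw [map_mul, map_mul, map_inv, hAB, hAB, hτ, gD_gU, hA (th m (s : F) * a)] at h3
    exact (gU_injective h h3).1.symm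
  have hA1 : A 1 0 ≠ 0 := by
    intro e
    obtain ⟨r, hr⟩ := norm_surj h (B 1 0)
    have h4 : γ (gU h 1 0) = gU h r 0 * gU h r 0 := by
      rw [hAB, e, gU_sq, mul_comm, show r * th m r = B 1 0 from hr]
    have h5 := congrArg γ.symm h4
    rw [MulEquiv.symm_apply_apply, map_mul] at h5
    -- an element outside the centre is not a square
    have h6 := gU_pow_four h 1 0
    have h7 : gU h 1 0 ^ 2 = 1 := by
      have h8 : (gU h r 0 * gU h r 0) ^ 2 = 1 := by rw [gU_sq, gU_sq_eq_one_iff]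
      rw [h5, ← map_mul, ← map_pow, h8, map_one]
    exact one_ne_zero ((gU_sq_eq_one_iff h).mp h7)
  obtain ⟨t0, ht0⟩ := th_surj h (A 1 0)⁻¹
  have ht00 : t0 ≠ 0 := fun e => inv_ne_zero hA1 (by rw [← ht0, e, th_zero])
  set σf : F → F := fun x => th m t0 * A x 0 with hσf
  have hσ1 : σf 1 = 1 := by simp [hσf, ht0, inv_mul_cancel₀ hA1]
  have hσadd : ∀ x y, σf (x + y) = σf x + σf y := fun x y => by simp [hσf, hAdd, mul_add]
  have hσ0 : σf 0 = 0 := by
    have := hσadd 0 0
    rw [add_zero] at this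
    linear_combination -this
  have hσth : ∀ s : Fˣ, σf (th m (s : F)) = th m (τ s : F) := fun s => by
    have := hAs s 1
    rw [mul_one] at this
    simp only [hσf, this, ht0]
    field_simp
  have hσmul : ∀ x y, σf (x * y) = σf x * σf y := by
    intro x y
    by_cases hx : x = 0
    · rw [hx, zero_mul, hσ0, zero_mul]
    obtain ⟨r, hr⟩ := th_surj h x
    have hr0 : r ≠ 0 := fun e => hx (by rw [← hr, e, th_zero])
    have h1 := hAs (Units.mk0 r hr0) y
    have h2 := hσth (Units.mk0 r hr0)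
    rw [Units.val_mk0, hr] at h1 h2
    rw [h2]
    simp only [hσf, h1]
    ring
  let σr : F →+* F :=
    { toFun := σf, map_one' := hσ1, map_mul' := hσmul, map_zero' := hσ0, map_add' := hσadd }
  let σ : RingAut F := RingEquiv.ofBijective σr (Finite.injective_iff_bijective.mp σr.injective)
  have hσv : ∀ x, σ x = σf x := fun _ => rfl
  refine ⟨(gD h (Units.mk0 t0 ht00) * k)⁻¹, σ, ?_⟩
  have key : (fieldHom h σ)⁻¹ * (MulAut.conj (gD h (Units.mk0 t0 ht00)) * γ) = 1 := by
    refine rigid h _ (fun a => ⟨σ.symm (th m t0 * t0 ^ 2 * B a 0), ?_⟩) (fun s => ?_)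
    · rw [MulAut.mul_apply, MulAut.mul_apply, hAB, conj_gD_gU, Units.val_mk0, MulAut.inv_apply,
        MulEquiv.symm_apply_eq, fieldHom_U, σ.apply_symm_apply, hσv]
    · rw [MulAut.mul_apply, MulAut.mul_apply, hτ, MulAut.inv_apply, MulEquiv.symm_apply_eq, fieldHom_D,
        MulAut.conj_apply, gD_inv, gD_mul, gD_mul, mul_comm (Units.mk0 t0 ht00), mul_inv_cancel_right]
      congr 1
      refine Units.ext (h.th_injective ?_)
      show th m (τ s : F) = th m (σ (s : F))
      rw [th_map, hσv, hσth]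
  rw [inv_mul_eq_one, hγ, ← mul_assoc, ← map_mul] at key
  rw [map_inv, key, inv_mul_cancel_left]

theorem fieldHom_inner {σ : RingAut F} {g : G F m} (e : fieldHom h σ = MulAut.conj g) : σ = 1 := by
  have e' : ∀ x, fieldHom h σ x = g * x * g⁻¹ := fun x => by rw [e]; rfl
  obtain ⟨a, b, s, rfl⟩ := (mem_borel_iff h).mp (fix_of_conj h (a := 1) (b := 0) (a' := σ 1) (b' := σ 0) (x := g)
    (by simp) (by rw [← e', fieldHom_U]))
  obtain ⟨s1, hs1⟩ := exists_unit_ne_one h
  have h1 : gD h (Units.map σ.toMonoidHom s1) = gU h a b * gD h s1 * (gU h a b)⁻¹ := by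
    rw [← fieldHom_D, e']
    calc gU h a b * gD h s * gD h s1 * (gU h a b * gD h s)⁻¹
        = gU h a b * (gD h s * gD h s1 * (gD h s)⁻¹) * (gU h a b)⁻¹ := by group
      _ = _ := by rw [gD_inv, gD_mul, gD_mul, mul_comm s s1, mul_inv_cancel_right]
  have hfix : act h (gD h (Units.map σ.toMonoidHom s1)) (opt m a b) = opt m a b := by
    have h2 : act h (gU h a b) (opt m 0 0) = opt m a b := by rw [gU_opt]; simp
    rw [h1, ← h2]
    exact conj_move h (by rw [gD_opt, mul_zero, mul_zero])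
  have hab : a = 0 ∧ b = 0 := by
    by_contra hne
    have := gD_fix_imp h hne hfix
    exact hs1 (Units.map_injective (f := σ.toMonoidHom) σ.injective (this.trans (map_one _).symm))
  rw [hab.1, hab.2, gU_zero, one_mul] at e'
  have h3 := e' (gU h 1 0)
  rw [fieldHom_U, map_one, gD_gU] at h3
  have hs : th m (s : F) = 1 := by simpa using (gU_injective h h3).1.symm
  refine RingEquiv.ext fun x => ?_
  have h4 := e' (gU h x 0)
  rw [fieldHom_U, gD_gU] at h4
  simpa [hs] using (gU_injective h h4).1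

theorem card_out : Nat.card (Cfsg.Out (G F m)) = 2 * m + 1 := by
  haveI : Fact (Nat.Prime 2) := ⟨Nat.prime_two⟩
  rw [← CfsgLib.AutPSL.card_ringAut F (p := 2) (f := 2 * m + 1) h.hF]
  refine (Nat.card_congr (Equiv.ofBijective
    ((QuotientGroup.mk' (Cfsg.Inn (G F m))).comp (fieldHom h)) ⟨?_, ?_⟩)).symm
  · refine (injective_iff_map_eq_one _).mpr fun σ hσ => ?_
    obtain ⟨g, hg⟩ := (QuotientGroup.eq_one_iff _).mp hσ
    exact fieldHom_inner h hg.symm
  · intro x
    obtain ⟨α, rfl⟩ := QuotientGroup.mk'_surjective _ x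
    obtain ⟨k, σ, rfl⟩ := exists_decomposition h α
    refine ⟨σ, ?_⟩
    rw [map_mul]
    have : QuotientGroup.mk' (Cfsg.Inn (G F m)) (MulAut.conj k) = 1 := (QuotientGroup.eq_one_iff _).mpr ⟨k, rfl⟩
    rw [this, one_mul]
    rfl

end CfsgLib.Sz
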